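import Mathlib
import Cfsg.Agent.H364.DCross

/-!
# The Sylow subgroups of `PΩ⁺(2n, q)`, `n` even, are small (S3677, for helper60)

`part_le`: a prime part `P t M` with `t ≠ p` of the order `M` is at most `q ^ (2 (n - 1))`, except for
`q = 2`, `t = 3` and `q = 3`, `t = 2`.
-/

set_option autoImplicit false

namespace Cfsg.Agent.H881.CS.PartLe

open Finset Cfsg.Agent.H902.Lte Cfsg.Agent.H902.Art Cfsg.Agent.H364.SpVal Cfsg.Agent.H364.DCross

/-! ### numerical estimates -/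

/-- the case of order `1`: `(q + 1)^(2n) 3^(n-1) ≤ q^(4 (n-1))` -/
theorem num_one {q : ℕ} (hq : 4 ≤ q) {n : ℕ} (hn : 4 ≤ n) :
    ((q + 1) ^ 2) ^ n * 3 ^ (n - 1) ≤ (q ^ 4) ^ (n - 1) := by
  induction n, hn using Nat.le_induction with
  | base =>
    obtain ⟨k, rfl⟩ := Nat.exists_eq_add_of_le hq
    have h1 : 4 * (4 + k + 1) ≤ 5 * (4 + k) := by omega
    have h2 : (4 * (4 + k + 1)) ^ 8 ≤ (5 * (4 + k)) ^ 8 := Nat.pow_le_pow_left h1 8
    have h3 : 4 ^ 4 ≤ (4 + k) ^ 4 := Nat.pow_le_pow_left (by omega) 4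
    rw [mul_pow, mul_pow] at h2
    show ((4 + k + 1) ^ 2) ^ 4 * 3 ^ 3 ≤ ((4 + k) ^ 4) ^ 3
    have h4 : ((4 + k) ^ 4) ^ 3 = (4 + k) ^ 8 * (4 + k) ^ 4 := by ring
    have h5 : ((4 + k + 1) ^ 2) ^ 4 = (4 + k + 1) ^ 8 := by ring
    rw [h4, h5]
    generalize (4 + k + 1) ^ 8 = A at *
    generalize (4 + k) ^ 8 = B at *
    generalize (4 + k) ^ 4 = D at *
    norm_num at h2 h3
    have h6 : B * 256 ≤ B * D := Nat.mul_le_mul_left _ h3
    omega
  | succ m hm ih =>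
    obtain ⟨j, rfl⟩ : ∃ j, m = j + 1 := ⟨m - 1, by omega⟩
    rw [Nat.add_sub_cancel] at ih ⊢
    have h1 : (q + 1) ^ 2 * 3 ≤ q ^ 4 := by
      have h2 : 16 * q ^ 2 ≤ q ^ 4 := by
        have h3 : 4 ^ 2 ≤ q ^ 2 := Nat.pow_le_pow_left hq 2
        calc 16 * q ^ 2 ≤ q ^ 2 * q ^ 2 := Nat.mul_le_mul_right _ (by omega)
          _ = q ^ 4 := by ring
      nlinarith
    calc ((q + 1) ^ 2) ^ (j + 1 + 1) * 3 ^ (j + 1) = (((q + 1) ^ 2) ^ (j + 1) * 3 ^ j) * ((q + 1) ^ 2 * 3) := by ring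
      _ ≤ (q ^ 4) ^ j * q ^ 4 := Nat.mul_le_mul ih h1
      _ = _ := by ring

/-- the case of order at least `2`: `(Q + 1)^(2k) 3^(k-1) ≤ Q^(4k-2)`, `Q = q^e` -/
theorem num_two {Q : ℕ} (hQ : 4 ≤ Q) {k : ℕ} (hk : 2 ≤ k) :
    ((Q + 1) ^ 2) ^ k * 3 ^ (k - 1) * Q ^ 2 ≤ (Q ^ 4) ^ k := by
  induction k, hk using Nat.le_induction with
  | base =>
    have h1 : 4 * (Q + 1) ≤ 5 * Q := by omega
    have h2 : (4 * (Q + 1)) ^ 4 ≤ (5 * Q) ^ 4 := Nat.pow_le_pow_left h1 4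
    rw [mul_pow, mul_pow] at h2
    have h3 : 4 ^ 2 ≤ Q ^ 2 := Nat.pow_le_pow_left hQ 2
    have h4 : ((Q + 1) ^ 2) ^ 2 * 3 ^ (2 - 1) * Q ^ 2 = 3 * (Q + 1) ^ 4 * Q ^ 2 := by ring
    have h5 : (Q ^ 4) ^ 2 = (Q ^ 4 * Q ^ 2) * Q ^ 2 := by ring
    rw [h4, h5]
    apply Nat.mul_le_mul_right
    generalize (Q + 1) ^ 4 = A at *
    generalize Q ^ 4 = B at *
    generalize Q ^ 2 = D at *
    norm_num at h2 h3
    have h6 : B * 16 ≤ B * D := Nat.mul_le_mul_left _ h3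
    omega
  | succ m hm ih =>
    obtain ⟨j, rfl⟩ : ∃ j, m = j + 1 := ⟨m - 1, by omega⟩
    rw [Nat.add_sub_cancel] at ih ⊢
    have h1 : (Q + 1) ^ 2 * 3 ≤ Q ^ 4 := by
      have h2 : 16 * Q ^ 2 ≤ Q ^ 4 := by
        have h3 : 4 ^ 2 ≤ Q ^ 2 := Nat.pow_le_pow_left hQ 2
        calc 16 * Q ^ 2 ≤ Q ^ 2 * Q ^ 2 := Nat.mul_le_mul_right _ (by omega)
          _ = Q ^ 4 := by ring
      nlinarith
    calc ((Q + 1) ^ 2) ^ (j + 1 + 1) * 3 ^ (j + 1) * Q ^ 2 =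
        (((Q + 1) ^ 2) ^ (j + 1) * 3 ^ j * Q ^ 2) * ((Q + 1) ^ 2 * 3) := by ring
      _ ≤ (Q ^ 4) ^ (j + 1) * Q ^ 4 := Nat.mul_le_mul ih h1
      _ = _ := by ring

/-- the estimate for odd primes -/
theorem est_odd {q n e : ℕ} (hq : 2 ≤ q) (hn : 4 ≤ n) (he : 1 ≤ e) (hen : e ≤ n) (h : 4 ≤ q ∨ 2 ≤ e) :
    ((q ^ e + 1) ^ 2) ^ (n / e) * 3 ^ (n / e - 1) ≤ (q ^ (2 * (n - 1))) ^ 2 := by
  rw [← pow_mul q]
  rcases Nat.eq_or_lt_of_le he with he1 | he2
  · subst he1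
    have hq4 : 4 ≤ q := by omega
    rw [pow_one, Nat.div_one]
    refine (num_one hq4 hn).trans (le_of_eq ?_)
    rw [← pow_mul]
    congr 1
    omega
  · have hQ : 4 ≤ q ^ e := by
      calc 4 = 2 ^ 2 := by norm_num
        _ ≤ q ^ 2 := Nat.pow_le_pow_left hq 2
        _ ≤ q ^ e := Nat.pow_le_pow_right (by omega) he2
    have hk1 : 1 ≤ n / e := Nat.div_pos hen (by omega)
    have hke : e * (n / e) ≤ n := Nat.mul_div_le n e
    generalize n / e = k at *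
    rcases Nat.eq_or_lt_of_le hk1 with hk | hk
    · subst hk
      rw [pow_one, Nat.sub_self, pow_zero, mul_one]
      have h1 : q ^ e + 1 ≤ q ^ (2 * (n - 1)) := by
        have h2 : q ^ e * 2 ≤ q ^ e * q := Nat.mul_le_mul_left _ hq
        have h3 : q ^ e * q = q ^ (e + 1) := (pow_succ q e).symm
        have h4 : q ^ (e + 1) ≤ q ^ (2 * (n - 1)) := Nat.pow_le_pow_right (by omega) (by omega)
        omega
      calc (q ^ e + 1) ^ 2 ≤ (q ^ (2 * (n - 1))) ^ 2 := Nat.pow_le_pow_left h1 2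
        _ = _ := by rw [← pow_mul]
    · have h1 := num_two hQ hk
      have h2 : 0 < (q ^ e) ^ 2 := by positivity
      apply Nat.le_of_mul_le_mul_right _ h2
      refine h1.trans ?_
      rw [← pow_mul, ← pow_mul, ← pow_mul, ← pow_add]
      apply Nat.pow_le_pow_right (by omega)
      -- `e * (4 * k) ≤ 2 * (n - 1) * 2 + e * 2`
      have h3 : e * (4 * k) = 4 * (e * k) := by ring
      rw [h3]
      omega

/-! ### the prime `2` -/

/-- the `2`-part of `AA n q` -/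
theorem P_two_AA {q : ℕ} (hq : 3 ≤ q) (hodd : Odd q) (m : ℕ) :
    P 2 (AA m q) = (P 2 (q ^ 2 - 1)) ^ m * 2 ^ padicValNat 2 m.factorial := by
  have : Fact (Nat.Prime 2) := ⟨Nat.prime_two⟩
  have hq2 : ¬ 2 ∣ q := fun h => (Nat.not_even_iff_odd.2 hodd) (even_iff_two_dvd.2 h)
  induction m with
  | zero => simp [AA, P]
  | succ m ih =>
    have hne : ∀ i : ℕ, q ^ (2 * (i + 1)) - 1 ≠ 0 := by
      intro i
      have : q ^ 1 ≤ q ^ (2 * (i + 1)) := Nat.pow_le_pow_right (by omega) (by omega)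
      rw [pow_one] at this; omega
    have hs : AA (m + 1) q = AA m q * (q ^ (2 * (m + 1)) - 1) := by
      rw [AA, AA, Finset.prod_range_succ]
    rw [hs, P_mul (AA_ne (by omega)) (hne m), ih]
    have h1 : P 2 (q ^ (2 * (m + 1)) - 1) = P 2 (q ^ 2 - 1) * 2 ^ padicValNat 2 (m + 1) := by
      have h2 := lte_two (x := (q : ℤ)) (by
        have h2 : (2 : ℤ) ≤ q := by exact_mod_cast (show 2 ≤ q by omega)
        rwa [abs_of_nonneg (by positivity)]) (not_dvd_cast (r := 2) hq2) (i := 2 * (m + 1)) (by omega)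
      rw [if_pos (even_two_mul _), Nat.mul_div_cancel_left _ (by norm_num)] at h2
      have h3 : ∀ k : ℕ, ((q : ℤ) ^ k - 1).natAbs = q ^ k - 1 := by
        intro k
        have h4 : (q : ℤ) ^ k - 1 = ((q ^ k - 1 : ℕ) : ℤ) := by
          rw [Nat.cast_sub (Nat.one_le_pow _ _ (by omega))]; push_cast; rfl
        rw [h4, Int.natAbs_natCast]
      rw [← h3, ← h3, P_eq_natAbs Nat.prime_two, P_eq_natAbs Nat.prime_two, h2, pow_add]
    rw [h1, Nat.factorial_succ, padicValNat.mul (Nat.succ_ne_zero _) (Nat.factorial_ne_zero _), pow_add]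
    ring

/-- the `2`-part of the order -/
theorem P_two_le {n p f q M : ℕ} (hY : Real (.D n) p f M) (hq : p ^ f = q) (hp2 : 2 ≠ p) (hev : n % 2 = 0) :
    P 2 M * 16 ≤ (2 * P 2 (q ^ 2 - 1)) ^ n := by
  have hn : 4 ≤ n := hY.ok
  have hq2 := hY.q_ge
  have hvq := hY.not_dvd_q Nat.prime_two hp2
  have h2 := hY.P_other Nat.prime_two hp2
  have hn0 := hY.num_ne
  rw [hq] at hq2 hvq h2 hn0
  have hodd : Odd q := Nat.not_even_iff_odd.1 fun h => hvq h.two_dvd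
  have hq3 : 3 ≤ q := by
    rcases hodd with ⟨k, hk⟩; omega
  have hdd : dd (.D n) q = 4 := by
    show Nat.gcd 4 (q ^ n - 1) = 4
    apply Nat.gcd_eq_left
    obtain ⟨m, rfl⟩ : ∃ m, n = 2 * m := ⟨n / 2, by omega⟩
    have h4 : 4 ∣ q ^ 2 - 1 := by
      obtain ⟨k, rfl⟩ := hodd
      have : (2 * k + 1) ^ 2 = 4 * (k ^ 2 + k) + 1 := by ring
      rw [this, Nat.add_sub_cancel]
      exact Dvd.intro _ rfl
    rw [pow_mul]
    exact h4.trans (Nat.sub_one_dvd_pow_sub_one _ _)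
  have hP : ∀ k, P 2 (2 ^ k) = 2 ^ k := fun k => by
    have := P_pow_self (r := 2) (k := k) (a := 1) Nat.prime_two (by norm_num)
    simpa using this
  have h4 : P 2 4 = 4 := hP 2
  rw [hdd, h4] at h2
  have h5 := P_two_AA hq3 hodd n
  have h7 : P 2 (num (.D n) q) * P 2 (q ^ n + 1) = P 2 (AA n q) := by
    rw [← P_mul hn0 (by positivity), num_D_mul (by omega) (by omega)]
  have h8 : 2 ≤ P 2 (q ^ n + 1) := by
    have h9 : 2 ∣ q ^ n + 1 := by
      have : Odd (q ^ n) := hodd.pow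
      obtain ⟨k, hk⟩ := this
      exact ⟨k + 1, by omega⟩
    have h10 : P 2 2 ≤ P 2 (q ^ n + 1) := P_mono Nat.prime_two (by positivity) h9
    have h11 : P 2 2 = 2 := hP 1
    omega
  have h9 : P 2 M * 8 ≤ P 2 (AA n q) := by
    rw [← h7, ← h2]
    calc P 2 M * 8 = 4 * P 2 M * 2 := by ring
      _ ≤ _ := Nat.mul_le_mul_left _ h8
  have h10 : 2 * 2 ^ padicValNat 2 n.factorial ≤ 2 ^ n := by
    have h11 := pow_val_factorial_two_le (a := n) (by omega)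
    obtain ⟨m, rfl⟩ : ∃ m, n = m + 1 := ⟨n - 1, by omega⟩
    rw [Nat.add_sub_cancel] at h11
    rw [pow_succ]
    omega
  calc P 2 M * 16 = 2 * (P 2 M * 8) := by ring
    _ ≤ 2 * ((P 2 (q ^ 2 - 1)) ^ n * 2 ^ padicValNat 2 n.factorial) := by
        rw [← h5]; exact Nat.mul_le_mul_left 2 h9
    _ = (P 2 (q ^ 2 - 1)) ^ n * (2 * 2 ^ padicValNat 2 n.factorial) := by ring
    _ ≤ (P 2 (q ^ 2 - 1)) ^ n * 2 ^ n := Nat.mul_le_mul_left _ h10
    _ = _ := by rw [mul_pow, mul_comm]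

/-- the estimate for the prime `2` -/
theorem est_two {q n : ℕ} (hq : 7 ≤ q) (hn : 4 ≤ n) : (4 * (q + 1)) ^ n ≤ q ^ (2 * (n - 1)) * 16 := by
  induction n, hn using Nat.le_induction with
  | base =>
    have h1 : 7 * (q + 1) ≤ 8 * q := by omega
    have h2 : (7 * (q + 1)) ^ 4 ≤ (8 * q) ^ 4 := Nat.pow_le_pow_left h1 4
    rw [mul_pow, mul_pow] at h2
    have h3 : 7 ^ 2 ≤ q ^ 2 := Nat.pow_le_pow_left hq 2
    have h4 : (4 * (q + 1)) ^ 4 = 256 * (q + 1) ^ 4 := by ring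
    have h5 : q ^ (2 * (4 - 1)) * 16 = q ^ 4 * q ^ 2 * 16 := by
      rw [show 2 * (4 - 1) = 4 + 2 by norm_num, pow_add]
    rw [h4, h5]
    generalize (q + 1) ^ 4 = A at *
    generalize q ^ 4 = B at *
    generalize q ^ 2 = D at *
    norm_num at h2 h3
    have h6 : B * 49 ≤ B * D := Nat.mul_le_mul_left _ h3
    omega
  | succ m hm ih =>
    have h1 : 4 * (q + 1) ≤ q ^ 2 := by nlinarith
    have h2 : 2 * (m + 1 - 1) = 2 * (m - 1) + 2 := by omega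
    rw [h2, pow_succ, pow_add]
    calc (4 * (q + 1)) ^ m * (4 * (q + 1)) ≤ (q ^ (2 * (m - 1)) * 16) * q ^ 2 := Nat.mul_le_mul ih h1
      _ = _ := by ring

/-- **The Sylow subgroups are small**: piece P3 of the row `PΩ⁺(2n, q)`, `n` even, of S3677. -/
theorem part_le {n p f M t : ℕ} (hY : Real (.D n) p f M) (hev : n % 2 = 0) (ht : t.Prime) (htp : t ≠ p)
    (h2 : ¬ (p ^ f = 2 ∧ t = 3)) (h3 : ¬ (p ^ f = 3 ∧ t = 2)) : P t M ≤ (p ^ f) ^ (2 * (n - 1)) := by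
  have hn : 4 ≤ n := hY.ok
  have hq2 := hY.q_ge
  have hvq := hY.not_dvd_q ht htp
  by_cases ht2 : t = 2
  · subst ht2
    have hodd : Odd (p ^ f) := Nat.not_even_iff_odd.1 fun h => hvq h.two_dvd
    have h4 := P_two_le hY rfl htp hev
    generalize hq : p ^ f = q at *
    have hq3 : 3 ≤ q := by
      rcases hodd with ⟨k, hk⟩; omega
    have hq5 : 5 ≤ q := by
      rcases hodd with ⟨k, hk⟩
      have : q ≠ 3 := fun h => h3 ⟨h, rfl⟩
      omega
    rcases Nat.lt_or_ge q 7 with h7 | h7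
    · have hq5' : q = 5 := by
        rcases hodd with ⟨k, hk⟩; omega
      subst hq5'
      have h5 : P 2 (5 ^ 2 - 1) ≤ 8 := by
        have h6 : (5 : ℕ) ^ 2 - 1 = 2 ^ 3 * 3 := by norm_num
        rw [h6, P_pow_self Nat.prime_two (by norm_num)]
        norm_num
      have h6 : P 2 M * 16 ≤ 16 ^ n := h4.trans (Nat.pow_le_pow_left (by omega) n)
      obtain ⟨m, rfl⟩ : ∃ m, n = m + 1 := ⟨n - 1, by omega⟩
      rw [Nat.add_sub_cancel, pow_mul]
      rw [pow_succ] at h6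
      have h8 : P 2 M ≤ 16 ^ m := Nat.le_of_mul_le_mul_right h6 (by norm_num)
      exact h8.trans (Nat.pow_le_pow_left (by norm_num) m)
    · have h5 := P_two_sq_sub_one_le hq3 hodd
      have h6 : P 2 M * 16 ≤ (4 * (q + 1)) ^ n := h4.trans (Nat.pow_le_pow_left (by omega) n)
      have h8 := h6.trans (est_two h7 hn)
      exact Nat.le_of_mul_le_mul_right h8 (by norm_num)
  · refine (P_le_AA hY ht htp).trans ?_
    generalize hq : p ^ f = q at *
    obtain ⟨he, h4 | ⟨h4, h5⟩⟩ := PC_odd' ht ht2 hq2 hvq n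
    · rw [h4.2]
      exact Nat.one_le_pow _ _ (by omega)
    · apply Cfsg.Agent.H902.Art.le_of_sq_le
      refine h5.trans (est_odd hq2 hn he h4 ?_)
      by_contra hcon
      push Not at hcon
      obtain ⟨hq4, he2⟩ := hcon
      have he1 : orderOf ((q ^ 2 : ℕ) : ZMod t) = 1 := by omega
      rw [orderOf_eq_one_iff] at he1
      have h6 : t ∣ q ^ 2 - 1 := by
        have h7 : ((q ^ 2 - 1 : ℕ) : ZMod t) = 0 := by
          rw [Nat.cast_sub (Nat.one_le_pow _ _ (by omega)), he1, Nat.cast_one, sub_self]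
        exact (ZMod.natCast_eq_zero_iff _ _).1 h7
      have h7 : q = 2 ∨ q = 3 := by omega
      rcases h7 with rfl | rfl
      · norm_num at h6
        have h8 : t = 3 := (Nat.prime_dvd_prime_iff_eq ht Nat.prime_three).1 h6
        exact h2 ⟨rfl, h8⟩
      · norm_num at h6
        have h8 : t ∣ 2 ^ 3 := by norm_num; exact h6
        exact ht2 ((Nat.prime_dvd_prime_iff_eq ht Nat.prime_two).1 (ht.dvd_of_dvd_pow h8))

end Cfsg.Agent.H881.CS.PartLe
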