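import Mathlib
import Cfsg.Agent.H812.CS.Abel
import Cfsg.Agent.S0033

/-!
# S3677: isolated centralizers with `|G| / m ≡ 3`: simplicity from `O_t(G) = 1` (helper881)
-/

set_option autoImplicit false

namespace Cfsg.Agent.H881.CS

open Subgroup Cfsg.Agent.H812.CS

variable {G : Type*} [Group G] [Finite G]

/-- A normal subgroup of order prime to `m` is nilpotent. -/
theorem isNilpotent_of_isoC {m : ℕ} (h : IsoC G m) {K : Subgroup G} [K.Normal] (hK : (Nat.card K).Coprime m) :
    Group.IsNilpotent K := by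
  by_cases hKb : K = ⊥
  · subst hKb
    infer_instance
  obtain ⟨r, hr, hrm⟩ := Nat.exists_prime_and_dvd h.one.ne'
  have := Fact.mk hr
  obtain ⟨y, hy⟩ := exists_prime_orderOf_dvd_card' r (hrm.trans h.dvd)
  have hc := h.cent r y hr hrm (by rw [hy])
  -- no fixed points
  have hfix : ∀ k ∈ K, Commute k y → k = 1 := by
    intro k hk hky
    have h1 : orderOf k ∣ m := by
      rw [← hc]
      have := Subgroup.orderOf_mk k (mem_cent'.2 hky)
      rw [← this]
      exact orderOf_dvd_natCard _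
    have h2 : orderOf k ∣ Nat.card K := by
      have := Subgroup.orderOf_mk k hk
      rw [← this]
      exact orderOf_dvd_natCard _
    exact orderOf_eq_one_iff.1 (Nat.eq_one_of_dvd_coprimes hK h2 h1)
  set φ : MulAut K := MulAut.conjNormal y with hφ
  have hφc : ∀ k : K, φ k = k ↔ Commute (k : G) y := by
    intro k
    rw [← Subtype.coe_inj, hφ, MulAut.conjNormal_apply, mul_inv_eq_iff_eq_mul]
    exact ⟨fun e => e.symm, fun e => e.symm⟩
  have hord : orderOf φ = r := by
    apply orderOf_eq_prime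
    · rw [hφ, ← map_pow, ← hy, pow_orderOf_eq_one, map_one]
    · intro h1
      apply hKb
      rw [eq_bot_iff]
      intro k hk
      rw [Subgroup.mem_bot]
      apply hfix k hk
      rw [← hφc ⟨k, hk⟩, h1]
      rfl
  refine Cfsg.Agent.S0033.result (φ : K ≃* K) ?_ r hr hord
  intro k hk
  have hk' : φ k = k := hk
  rw [hφc] at hk'
  exact Subtype.ext (hfix k k.2 hk')

/-- a nontrivial nilpotent normal subgroup contains a nontrivial normal `t`-subgroup -/
theorem exists_pgroup {K : Subgroup G} [K.Normal] (hn : Group.IsNilpotent K) (hK : K ≠ ⊥) :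
    ∃ (t : ℕ) (Q : Subgroup G), t.Prime ∧ Q.Normal ∧ IsPGroup t Q ∧ Q ≠ ⊥ ∧ Q ≤ K := by
  have h1 : Nat.card K ≠ 1 := fun h => hK (Subgroup.card_eq_one.1 h)
  obtain ⟨t, ht, htK⟩ := Nat.exists_prime_and_dvd h1
  have := Fact.mk ht
  let P : Sylow t K := default
  have hPn : (P : Subgroup K).Normal :=
    ((Group.isNilpotent_of_finite_tfae (G := K)).out 0 3 rfl rfl).1 hn t ⟨ht⟩ P
  have hPc : (P : Subgroup K).Characteristic := Sylow.characteristic_of_normal P hPn
  refine ⟨t, (P : Subgroup K).map K.subtype, ht, ?_, ?_, ?_, ?_⟩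
  · infer_instance
  · exact P.isPGroup'.map _
  · intro h
    rw [Subgroup.map_eq_bot_iff_of_injective _ K.subtype_injective] at h
    have h2 := P.card_eq_multiplicity
    rw [h, Subgroup.card_bot] at h2
    have h3 := (ht.dvd_iff_one_le_factorization Nat.card_pos.ne').1 htK
    have h4 : 1 < t ^ (Nat.card K).factorization t := Nat.one_lt_pow (by omega) ht.one_lt
    omega
  · rintro _ ⟨k, -, rfl⟩
    exact k.2

/-- **Simplicity** from `O_t(G) = 1` for all primes `t ∤ m`. -/
theorem isSimple_of_isoC {m : ℕ} (h : IsoC G m) (h5 : ∀ r, r.Prime → r ∣ m → 5 ≤ r)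
    (hcm : Nat.card G / m ≡ 3 [MOD m]) (hne : Nat.card G ≠ m * 3)
    (hO : ∀ (t : ℕ) (Q : Subgroup G), t.Prime → ¬ t ∣ m → Q.Normal → IsPGroup t Q → Q = ⊥) :
    IsSimpleGroup G := by
  obtain ⟨K, hKn, hKm, -, hcases⟩ := h.struct h5 (by norm_num) hcm
  have hKb : K = ⊥ := by
    by_contra hKb
    obtain ⟨t, Q, ht, hQn, hQt, hQb, hQK⟩ := exists_pgroup (isNilpotent_of_isoC h hKm) hKb
    refine hQb (hO t Q ht ?_ hQn hQt)
    intro htm
    have := Fact.mk ht
    obtain ⟨a, ha⟩ := IsPGroup.iff_card.mp hQt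
    have ha0 : a ≠ 0 := by
      rintro rfl
      rw [pow_zero] at ha
      exact hQb (Subgroup.card_eq_one.mp ha)
    have h1 : t ∣ Nat.card K := (dvd_pow_self t ha0).trans (ha ▸ Subgroup.card_dvd_of_le hQK)
    exact ht.one_lt.ne' (Nat.eq_one_of_dvd_coprimes hKm h1 htm)
  subst hKb
  rcases hcases with h1 | ⟨N, hN, hNs, -, -, -, n', hn', hn3⟩
  · exfalso
    rw [Subgroup.card_bot, one_mul] at h1
    exact hne h1
  · have hidx : N.index = 1 := by
      rcases (Nat.dvd_prime Nat.prime_three).1 ⟨n', by rw [mul_comm]; exact hn3.symm⟩ with h1 | h1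
      · exact h1
      · rw [h1] at hn3
        omega
    have hNt : N = ⊤ := Subgroup.index_eq_one.1 hidx
    subst hNt
    have e1 : G ⧸ (⊥ : Subgroup G) ≃* G := QuotientGroup.quotientBot
    have e2 : (⊤ : Subgroup (G ⧸ (⊥ : Subgroup G))) ≃* G := Subgroup.topEquiv.trans e1
    exact e2.symm.isSimpleGroup

end Cfsg.Agent.H881.CS
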