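import Mathlib
import Cfsg.Agent.H881.CS.ClassThree
import Cfsg.Agent.H881.CS.Finish

/-!
# S3677: the row `PSL₃(q)` (helper881)
-/

set_option autoImplicit false

namespace Cfsg.Agent.H881.CS

open Matrix Module Cfsg.Agent.H363.PslSpec Cfsg.Agent.H363 Cfsg.Agent.H431.CS Cfsg.Agent.H370.AAM Cfsg.Agent.H812.CS

universe u v

/-- the size of a conjugacy class in a normal subgroup -/
theorem index_cent_lt {G : Type*} [Group G] [Finite G] {N : Subgroup G} (hN : N.Normal) {z : G} (hz : z ∈ N)
    (hz1 : z ≠ 1) : (Subgroup.centralizer ({z} : Set G)).index < Nat.card N := by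
  classical
  let f : G ⧸ Subgroup.centralizer ({z} : Set G) → N := Quotient.lift (fun g : G => (⟨g * z * g⁻¹, hN.conj_mem z hz g⟩ : N))
    (by
      intro a b hab
      have h1 : a⁻¹ * b ∈ Subgroup.centralizer ({z} : Set G) := QuotientGroup.leftRel_apply.1 hab
      have h2 : z * (a⁻¹ * b) = (a⁻¹ * b) * z := (Subgroup.mem_centralizer_iff.1 h1) z rfl
      apply Subtype.ext
      show a * z * a⁻¹ = b * z * b⁻¹
      calc a * z * a⁻¹ = a * (z * (a⁻¹ * b)) * b⁻¹ := by group
        _ = a * ((a⁻¹ * b) * z) * b⁻¹ := by rw [h2]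
        _ = b * z * b⁻¹ := by group)
  have hf : Function.Injective f := by
    intro x y
    refine Quotient.inductionOn₂ x y fun a b hab => ?_
    have h1 : a * z * a⁻¹ = b * z * b⁻¹ := congrArg Subtype.val hab
    apply Quotient.sound
    apply QuotientGroup.leftRel_apply.2
    rw [Subgroup.mem_centralizer_iff]
    intro w hw
    rw [Set.mem_singleton_iff.1 hw]
    calc z * (a⁻¹ * b) = a⁻¹ * (a * z * a⁻¹) * b := by group
      _ = a⁻¹ * (b * z * b⁻¹) * b := by rw [h1]
      _ = (a⁻¹ * b) * z := by group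
  have : Fintype N := Fintype.ofFinite N
  have : Fintype (G ⧸ Subgroup.centralizer ({z} : Set G)) := Fintype.ofFinite _
  rw [Subgroup.index, Nat.card_eq_fintype_card, Nat.card_eq_fintype_card]
  refine Fintype.card_lt_of_injective_of_notMem f hf (b := 1) ?_
  rintro ⟨x, hx⟩
  revert hx
  refine Quotient.inductionOn x fun a ha => ?_
  have h1 : a * z * a⁻¹ = 1 := congrArg Subtype.val ha
  apply hz1
  calc z = a⁻¹ * (a * z * a⁻¹) * a := by group
    _ = 1 := by rw [h1]; group

/-- a nontrivial normal `p`-subgroup contains an element centralised by a Sylow `p`-subgroup -/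
theorem exists_central {G : Type*} [Group G] [Finite G] {p : ℕ} (hp : p.Prime) {Q : Subgroup G} (hQ : Q.Normal)
    (hQp : IsPGroup p Q) (hQ1 : Q ≠ ⊥) : ∃ z ∈ Q, z ≠ 1 ∧
      p ^ (Nat.card G).factorization p ∣ Nat.card (Subgroup.centralizer ({z} : Set G)) := by
  have := Fact.mk hp
  let P : Sylow p G := default
  let _ : MulAction P Q := MulAction.compHom Q ((MulAut.conjNormal (H := Q)).comp (P : Subgroup G).subtype)
  have hsm : ∀ (g : P) (x : Q), ((g • x : Q) : G) = g * x * (g : G)⁻¹ := fun g x => rfl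
  obtain ⟨a, ha⟩ := IsPGroup.iff_card.mp hQp
  have ha0 : a ≠ 0 := by
    rintro rfl
    rw [pow_zero] at ha
    exact hQ1 (Subgroup.card_eq_one.mp ha)
  have hpQ : p ∣ Nat.card Q := by rw [ha]; exact dvd_pow_self p ha0
  have h1 : (1 : Q) ∈ MulAction.fixedPoints P Q := by
    intro g
    apply Subtype.ext
    rw [hsm]
    simp
  obtain ⟨b, hb, hb1⟩ := P.isPGroup'.exists_fixed_point_of_prime_dvd_card_of_fixed_point Q hpQ h1
  refine ⟨b, b.2, fun h => hb1 (Subtype.ext h).symm, ?_⟩
  rw [← P.card_eq_multiplicity]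
  apply Subgroup.card_dvd_of_le
  intro g hg
  rw [Subgroup.mem_centralizer_iff]
  rintro y rfl
  have h2 := congrArg Subtype.val (hb ⟨g, hg⟩)
  rw [hsm] at h2
  have h3 : g * (b : G) * g⁻¹ = b := h2
  exact (mul_inv_eq_iff_eq_mul.1 h3).symm

/-- the `t`-part of `(q - 1)² (q + 1)` -/
theorem arith_part {j t a d : ℕ} (hj : 1 ≤ j) (hd : d = 1 ∨ (d = 3 ∧ 3 ∣ j)) (ht : t.Prime)
    (h : t ^ a ∣ j ^ 2 * (j + 2)) : d * t ^ a ≤ (j + 1) * (j * (j + 2)) := by
  have h3j : d = 3 → 3 ≤ j := fun h => by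
    rcases hd with hd | ⟨-, hd⟩
    · omega
    · exact Nat.le_of_dvd hj hd
  have hd3 : d ≤ 3 := by rcases hd with hd | ⟨hd, -⟩ <;> omega
  have case1 : t ^ a ≤ j + 2 → d * t ^ a ≤ (j + 1) * (j * (j + 2)) := by
    intro h1
    have h2 : d ≤ (j + 1) * j := by
      rcases hd with hd | ⟨hd, -⟩
      · nlinarith
      · have := h3j hd; nlinarith
    calc d * t ^ a ≤ ((j + 1) * j) * (j + 2) := Nat.mul_le_mul h2 h1
      _ = _ := by ring
  have case2 : t ^ a ≤ j ^ 2 → d * t ^ a ≤ (j + 1) * (j * (j + 2)) := by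
    intro h1
    calc d * t ^ a ≤ 3 * j ^ 2 := Nat.mul_le_mul hd3 h1
      _ ≤ _ := by nlinarith
  by_cases h2 : t = 2
  · subst h2
    rcases Nat.even_or_odd j with he | ho
    · obtain ⟨i, hi⟩ := he
      have hi' : j = 2 * i := by omega
      rcases Nat.even_or_odd i with he | ho
      · -- `4 ∣ j`
        obtain ⟨k, hk⟩ := he
        have hk' : j = 4 * k := by omega
        have h3 : 2 ^ a ∣ 2 * j ^ 2 := by
          have h4 : 2 ^ a ∣ (2 * j ^ 2) * (2 * k + 1) := by
            have : (2 * j ^ 2) * (2 * k + 1) = j ^ 2 * (j + 2) := by rw [hk']; ring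
            rw [this]; exact h
          refine Nat.Coprime.dvd_of_dvd_mul_right ?_ h4
          apply Nat.Coprime.pow_left
          rw [Nat.Prime.coprime_iff_not_dvd Nat.prime_two]
          omega
        have h5 := Nat.le_of_dvd (by positivity) h3
        have h6 : d * (2 * j ^ 2) ≤ (j + 1) * (j * (j + 2)) := by
          have h7 : 6 * j ≤ (j + 1) * (j + 2) := by
            have : 4 ≤ j := by omega
            nlinarith
          calc d * (2 * j ^ 2) ≤ 3 * (2 * j ^ 2) := Nat.mul_le_mul_right _ hd3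
            _ = (6 * j) * j := by ring
            _ ≤ ((j + 1) * (j + 2)) * j := Nat.mul_le_mul_right _ h7
            _ = _ := by ring
        exact (Nat.mul_le_mul_left d h5).trans h6
      · obtain ⟨k, hk⟩ := ho
        have hk' : j = 4 * k + 2 := by omega
        have h3 : 2 ^ a ∣ 4 * (j + 2) := by
          have h4 : 2 ^ a ∣ (4 * (j + 2)) * (2 * k + 1) ^ 2 := by
            have : (4 * (j + 2)) * (2 * k + 1) ^ 2 = j ^ 2 * (j + 2) := by rw [hk']; ring
            rw [this]; exact h
          refine Nat.Coprime.dvd_of_dvd_mul_right ?_ h4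
          apply Nat.Coprime.pow_left
          apply Nat.Coprime.pow_right
          rw [Nat.Prime.coprime_iff_not_dvd Nat.prime_two]
          omega
        have h5 := Nat.le_of_dvd (by positivity) h3
        have h6 : 4 * d ≤ (j + 1) * j := by
          rcases hd with hd | ⟨hd, h3j'⟩
          · have : 2 ≤ j := by omega
            nlinarith
          · have : 6 ≤ j := by omega
            nlinarith
        calc d * 2 ^ a ≤ d * (4 * (j + 2)) := Nat.mul_le_mul_left d h5
          _ = (4 * d) * (j + 2) := by ring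
          _ ≤ ((j + 1) * j) * (j + 2) := Nat.mul_le_mul_right _ h6
          _ = _ := by ring
    · apply case1
      refine Nat.le_of_dvd (by omega) (Nat.Coprime.dvd_of_dvd_mul_left ?_ h)
      apply Nat.Coprime.pow_left
      apply Nat.Coprime.pow_right
      rw [Nat.Prime.coprime_iff_not_dvd Nat.prime_two]
      obtain ⟨k, hk⟩ := ho
      omega
  · by_cases h3 : t ∣ j
    · apply case2
      refine Nat.le_of_dvd (by positivity) (Nat.Coprime.dvd_of_dvd_mul_right ?_ h)
      apply Nat.Coprime.pow_left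
      rw [Nat.Prime.coprime_iff_not_dvd ht]
      intro h4
      have h5 := (Nat.dvd_add_right h3).1 h4
      exact h2 ((Nat.prime_dvd_prime_iff_eq ht Nat.prime_two).1 h5)
    · apply case1
      refine Nat.le_of_dvd (by omega) (Nat.Coprime.dvd_of_dvd_mul_left ?_ h)
      apply Nat.Coprime.pow_left
      apply Nat.Coprime.pow_right
      rwa [Nat.Prime.coprime_iff_not_dvd ht]

/-- **S3677, row `PSL₃(q)`**: a finite group with the order and the class sizes of `PSL₃(q)` is simple. -/
theorem row_psl_three {G : Type u} [Group G] [Finite G] {F : Type v} [Field F] [Fintype F]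
    (h : Same G (Matrix.ProjectiveSpecialLinearGroup (Fin 3) F)) : IsSimpleGroup G := by
  obtain ⟨p, hchar⟩ := CharP.exists F
  obtain ⟨f, hp, hf⟩ := FiniteField.card F p
  have hpf : Fact p.Prime := ⟨hp⟩
  have hcardF := card_psl_three (F := F)
  have hcardS := h.card
  have htor := fun {r : ℕ} (hr : r.Prime) => card_cent_PSL (F := F) hr
  have hle1 := fun {s : ProjectiveSpecialLinearGroup (Fin 3) F} => card_cent_le (F := F) (s := s)
  have hle2 := fun {s : ProjectiveSpecialLinearGroup (Fin 3) F} => card_cent_le_of_dvd (F := F) (s := s)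
  rw [← Nat.card_eq_fintype_card] at hf
  rw [← hcardS] at hcardF
  have hq1 : 1 < Nat.card F := Finite.one_lt_card
  set q := Nat.card F with hq
  set d := Nat.gcd 3 (q - 1) with hd
  have hd13 := gcd_three (q - 1)
  rw [← hd] at hd13
  have hd3 : d = 1 ∨ (d = 3 ∧ 3 ∣ q - 1) := by
    rcases hd13 with h | h
    · exact Or.inl h
    · refine Or.inr ⟨h, ?_⟩
      have := Nat.gcd_dvd_right 3 (q - 1)
      rwa [← hd, h] at this
  -- `m`
  have hdM : d ∣ q ^ 2 + q + 1 := by
    rcases hd3 with h | ⟨h, i, hi⟩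
    · rw [h]; exact one_dvd _
    · rw [h]
      have hqi : q = 3 * i + 1 := by omega
      rw [hqi]
      exact ⟨3 * i ^ 2 + 3 * i + 1, by ring⟩
  obtain ⟨m, hm⟩ := hdM
  have hd0 : 0 < d := by rcases hd13 with h | h <;> omega
  have hm7 : 7 ≤ m := by
    rcases hd3 with h | ⟨h, h3⟩
    · rw [h, one_mul] at hm; nlinarith
    · have : 4 ≤ q := by omega
      rw [h] at hm; nlinarith
  obtain ⟨j, hj⟩ : ∃ j, q = j + 1 := ⟨q - 1, by omega⟩
  have hj1 : 1 ≤ j := by omega
  have hqj : q - 1 = j := by omega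
  rw [hqj] at hd3
  have hq2 : q ^ 2 - 1 = j * (j + 2) := by
    rw [hj]
    have : (j + 1) ^ 2 = j * (j + 2) + 1 := by ring
    omega
  have hq3 : q ^ 3 - 1 = j * (d * m) := by
    rw [← hm, hj]
    have : (j + 1) ^ 3 = j * ((j + 1) ^ 2 + (j + 1) + 1) + 1 := by ring
    omega
  have hG : Nat.card G = m * (q ^ 3 * (j ^ 2 * (j + 2))) := by
    apply Nat.eq_of_mul_eq_mul_left hd0
    rw [hcardF, hq2, hq3]
    ring
  have hdm : d * m = q * (j + 2) + 1 := by rw [← hm, hj]; ring
  have hdm' : d * m = j * (j + 3) + 3 := by rw [← hm, hj]; ring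
  -- primes dividing `m`
  have hprm : ∀ r : ℕ, r.Prime → r ∣ m → ¬ r ∣ q ∧ ¬ r ∣ j ∧ ¬ r ∣ j + 2 := by
    intro r hr hrm
    have h1 : r ∣ d * m := hrm.mul_left _
    refine ⟨fun h2 => ?_, fun h2 => ?_, fun h2 => ?_⟩
    · rw [hdm] at h1
      exact hr.one_lt.ne' (Nat.dvd_one.mp ((Nat.dvd_add_right (h2.mul_right _)).mp h1))
    · rw [hdm'] at h1
      have h3 : r ∣ 3 := (Nat.dvd_add_right (h2.mul_right _)).mp h1
      have h4 : r = 3 := (Nat.prime_dvd_prime_iff_eq hr Nat.prime_three).mp h3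
      subst h4
      have h5 : d = 3 := by
        rw [hd, hqj]
        exact Nat.gcd_eq_left h2
      obtain ⟨i, hi⟩ := h2
      rw [h5, hi] at hdm'
      have h7 : m = 3 * (i ^ 2 + i) + 1 := by
        have : 3 * m = 3 * (3 * (i ^ 2 + i) + 1) := by rw [hdm']; ring
        omega
      omega
    · rw [hdm] at h1
      exact hr.one_lt.ne' (Nat.dvd_one.mp ((Nat.dvd_add_right (h2.mul_left _)).mp h1))
  have h5 : ∀ r : ℕ, r.Prime → r ∣ m → 5 ≤ r := by
    intro r hr hrm
    obtain ⟨a1, a2, a3⟩ := hprm r hr hrm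
    by_contra hcon
    have h2 := hr.two_le
    have h3 : r = 2 ∨ r = 3 ∨ r = 4 := by omega
    rcases h3 with h3 | h3 | h3
    · subst h3; omega
    · subst h3; omega
    · subst h3; exact absurd hr (by norm_num)
  have hrd : ∀ r : ℕ, r.Prime → r ∣ m → r ∣ q ^ 3 - 1 ∧ ∀ e, 0 < e → e < 3 → ¬ r ∣ q ^ e - 1 := by
    intro r hr hrm
    obtain ⟨a1, a2, a3⟩ := hprm r hr hrm
    refine ⟨?_, ?_⟩
    · rw [hq3]; exact (hrm.mul_left _).mul_left _
    · intro e he0 he3
      interval_cases e
      · rwa [pow_one, hqj]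
      · rw [hq2, hr.dvd_mul]
        exact fun h => h.elim a2 a3
  have hk : ∀ r : ℕ, r.Prime → r ∣ m → ¬ r ∣ q ^ 3 * (j ^ 2 * (j + 2)) := by
    intro r hr hrm
    obtain ⟨a1, a2, a3⟩ := hprm r hr hrm
    rw [hr.dvd_mul, hr.dvd_mul]
    rintro (h1 | h1 | h1)
    · exact a1 (hr.dvd_of_dvd_pow h1)
    · exact a2 (hr.dvd_of_dvd_pow h1)
    · exact a3 h1
  have hcop : m.Coprime (q ^ 3 * (j ^ 2 * (j + 2))) :=
    Nat.coprime_of_dvd (fun r hr h1 h2 => hk r hr h1 h2)
  have hdivm : Nat.card G / m = q ^ 3 * (j ^ 2 * (j + 2)) := by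
    rw [hG, Nat.mul_div_cancel_left _ (by omega)]
  have hpq : p ∣ q := by rw [hf]; exact dvd_pow_self p f.ne_zero
  have hpG : p ∣ Nat.card G := by
    rw [hG]; exact ((dvd_pow hpq (by norm_num)).mul_right _).mul_left _
  have hpm : ¬ p ∣ m := fun h1 => (hprm p hp h1).1 hpq
  -- centralizers of the `r`-elements
  have hcent : ∀ (r : ℕ) (y : G), r.Prime → r ∣ m → r ∣ orderOf y →
      Nat.card (Subgroup.centralizer ({y} : Set G)) = m := by
    intro r y hr hrm hry
    obtain ⟨e1, e2⟩ := hrd r hr hrm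
    have hval : ∀ s : ProjectiveSpecialLinearGroup (Fin 3) F, s ≠ 1 →
        r ∣ Nat.card (Subgroup.centralizer ({s} : Set (ProjectiveSpecialLinearGroup (Fin 3) F))) →
        Nat.card (Subgroup.centralizer ({s} : Set (ProjectiveSpecialLinearGroup (Fin 3) F))) = m := by
      intro s hs hrs
      have h1 := htor hr e1 e2 hs hrs
      rw [hqj, hq3] at h1
      have h2 : d * j * Nat.card (Subgroup.centralizer ({s} : Set (ProjectiveSpecialLinearGroup (Fin 3) F))) =
          d * j * m := by linarith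
      exact Nat.eq_of_mul_eq_mul_left (Nat.mul_pos hd0 hj1) h2
    obtain ⟨s, hs⟩ := h.mem y
    have hrc : r ∣ Nat.card (Subgroup.centralizer ({y} : Set G)) := dvd_cent (Commute.refl y) hry
    by_cases hs1 : s = 1
    · exfalso
      -- `y` is central
      have hc1 : Nat.card (Subgroup.centralizer ({y} : Set G)) = Nat.card G := by
        rw [← hs, hcardS, hs1]
        have : Subgroup.centralizer ({1} : Set (ProjectiveSpecialLinearGroup (Fin 3) F)) = ⊤ := by
          rw [eq_top_iff]
          intro x _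
          rw [Subgroup.mem_centralizer_iff]
          rintro z rfl
          simp
        show Nat.card (Subgroup.centralizer ({1} : Set (ProjectiveSpecialLinearGroup (Fin 3) F))) = _
        rw [this, Subgroup.card_top]
      have hc2 : Subgroup.centralizer ({y} : Set G) = ⊤ := Subgroup.eq_top_of_card_eq _ hc1
      obtain ⟨x, hx⟩ := exists_prime_orderOf_dvd_card' p (hcardS ▸ hpG)
      have hx1 : x ≠ 1 := by
        rintro rfl
        rw [orderOf_one] at hx
        exact hp.one_lt.ne hx
      obtain ⟨g, hg⟩ := h.exists_of_mem (mem_co x)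
      have hg1 : r ∣ Nat.card (Subgroup.centralizer ({g} : Set G)) :=
        dvd_cent (show Commute y g from (mem_cent.1 (hc2 ▸ Subgroup.mem_top g)).symm) hry
      rw [hg] at hg1
      have h2 := hval x hx1 hg1
      apply hpm
      rw [← h2, ← hx]
      exact dvd_cent (Commute.refl x) dvd_rfl
    · rw [← hs]
      apply hval s hs1
      rw [← hs] at hrc
      exact hrc
  have hiso : IsoC G m :=
    { one := by omega
      dvd := ⟨_, hG⟩
      cop := by rw [hdivm]; exact hcop
      cent := hcent }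
  have hcm : Nat.card G / m ≡ 3 [MOD m] := by
    rw [hdivm]
    have h2 : (q ^ 3 * (j ^ 2 * (j + 2)) : ℕ) ≡ 3 [MOD (d * m)] := by
      obtain ⟨i, hi⟩ : ∃ i, j = i + 1 := ⟨j - 1, by omega⟩
      have h3 : q ^ 3 * (j ^ 2 * (j + 2)) = 3 + (d * m) * ((i + 1) ^ 4 + 2 * (i + 1) ^ 3 + i) := by
        rw [hdm', hj, hi]; ring
      rw [h3]
      simp [Nat.ModEq]
    exact h2.of_dvd (Dvd.intro_left _ rfl)
  refine isSimple_of_isoC hiso h5 hcm ?_ ?_
  · rw [hG]
    intro h1
    have h2 := Nat.eq_of_mul_eq_mul_left (by omega) h1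
    have h3 : 2 ^ 3 ≤ q ^ 3 := Nat.pow_le_pow_left (by omega) 3
    have h4 : 1 ≤ j ^ 2 * (j + 2) := Nat.mul_pos (pow_pos hj1 2) (by omega)
    nlinarith
  · intro t Q ht htm hQn hQt
    by_contra hQ1
    have := Fact.mk ht
    obtain ⟨a, ha⟩ := IsPGroup.iff_card.mp hQt
    have hQk : Nat.card Q ∣ q ^ 3 * (j ^ 2 * (j + 2)) := by
      have h1 : Nat.card Q ∣ m * (q ^ 3 * (j ^ 2 * (j + 2))) := by rw [← hG]; exact Subgroup.card_subgroup_dvd_card Q
      refine Nat.Coprime.dvd_of_dvd_mul_left ?_ h1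
      rw [ha]
      exact Nat.Coprime.pow_left _ ((Nat.Prime.coprime_iff_not_dvd ht).mpr htm)
    have ha0 : a ≠ 0 := by
      rintro rfl
      rw [pow_zero] at ha
      exact hQ1 (Subgroup.card_eq_one.mp ha)
    have hq30 : 0 < q ^ 3 := pow_pos (by omega) 3
    -- common part: for `z ∈ Q`, `z ≠ 1`
    have hz : ∀ z ∈ Q, z ≠ 1 → ∃ s : ProjectiveSpecialLinearGroup (Fin 3) F, s ≠ 1 ∧
        Nat.card (Subgroup.centralizer ({s} : Set (ProjectiveSpecialLinearGroup (Fin 3) F))) =
          Nat.card (Subgroup.centralizer ({z} : Set G)) := by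
      intro z hzQ hz1
      obtain ⟨s, hs⟩ := h.mem z
      refine ⟨s, ?_, hs⟩
      intro hs1
      have hc1 : Nat.card (Subgroup.centralizer ({z} : Set G)) = Nat.card G := by
        rw [← hs, hcardS, hs1]
        have : Subgroup.centralizer ({1} : Set (ProjectiveSpecialLinearGroup (Fin 3) F)) = ⊤ := by
          rw [eq_top_iff]
          intro x _
          rw [Subgroup.mem_centralizer_iff]
          rintro z rfl
          simp
        show Nat.card (Subgroup.centralizer ({1} : Set (ProjectiveSpecialLinearGroup (Fin 3) F))) = _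
        rw [this, Subgroup.card_top]
      have hc2 : Subgroup.centralizer ({z} : Set G) = ⊤ := Subgroup.eq_top_of_card_eq _ hc1
      obtain ⟨r, hr, hrm⟩ := Nat.exists_prime_and_dvd (show m ≠ 1 by omega)
      have := Fact.mk hr
      obtain ⟨y, hy⟩ := exists_prime_orderOf_dvd_card' r (hrm.trans hiso.dvd)
      have h1 := hcent r y hr hrm (by rw [hy])
      have h2 : orderOf z ∣ m := by
        rw [← h1]
        exact dvd_cent (show Commute z y from (mem_cent.1 (hc2 ▸ Subgroup.mem_top y)).symm) dvd_rfl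
      have h3 : orderOf z ∣ Nat.card Q := by
        have := Subgroup.orderOf_mk z hzQ
        rw [← this]
        exact orderOf_dvd_natCard _
      have h4 : (Nat.card Q).Coprime m := by
        rw [ha]
        exact Nat.Coprime.pow_left _ ((Nat.Prime.coprime_iff_not_dvd ht).mpr htm)
      exact hz1 (orderOf_eq_one_iff.1 (Nat.eq_one_of_dvd_coprimes h4 h3 h2))
    have hdG : d * Nat.card G = q ^ 3 * (j * (j + 2) * (q ^ 3 - 1)) := by
      rw [hcardF, hq2]
    by_cases htp : t = p
    · subst htp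
      obtain ⟨z, hzQ, hz1, hzc⟩ := exists_central ht hQn hQt hQ1
      obtain ⟨s, hs1, hs⟩ := hz z hzQ hz1
      have hdv : q ^ 3 ∣ Nat.card (Subgroup.centralizer ({z} : Set G)) := by
        refine dvd_trans ?_ hzc
        rw [hf, ← pow_mul]
        apply pow_dvd_pow
        rw [← ht.pow_dvd_iff_le_factorization Nat.card_pos.ne', pow_mul, ← hf, hG]
        exact (dvd_mul_right _ _).mul_left _
      have hb := hle2 hs1 (by rw [hs]; exact hdv)
      rw [hs, hqj] at hb
      have hidx := index_cent_lt hQn hzQ hz1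
      have hci := Subgroup.card_mul_index (Subgroup.centralizer ({z} : Set G))
      have hQq : Nat.card Q ≤ q ^ 3 := by
        apply Nat.le_of_dvd hq30
        refine Nat.Coprime.dvd_of_dvd_mul_right ?_ hQk
        rw [ha]
        apply Nat.Coprime.pow_left
        rw [Nat.Prime.coprime_iff_not_dvd ht, ht.dvd_mul]
        have htj : ¬ t ∣ j := by
          intro h1
          rw [hj] at hpq
          exact ht.one_lt.ne' (Nat.dvd_one.1 ((Nat.dvd_add_right h1).1 hpq))
        have htj2 : ¬ t ∣ j + 2 := by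
          intro h1
          rw [hj] at hpq
          have h2 : j + 2 = (j + 1) + 1 := by ring
          rw [h2] at h1
          exact ht.one_lt.ne' (Nat.dvd_one.1 ((Nat.dvd_add_right hpq).1 h1))
        rintro (h1 | h1)
        · exact htj (ht.dvd_of_dvd_pow h1)
        · exact htj2 h1
      rw [← hci] at hdG
      generalize Nat.card (Subgroup.centralizer ({z} : Set G)) = c at *
      generalize (Subgroup.centralizer ({z} : Set G)).index = i at *
      have h1 : q ^ 3 * (j * (j + 2) * (q ^ 3 - 1)) ≤ j * q ^ 3 * i := by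
        rw [← hdG, ← mul_assoc]
        exact Nat.mul_le_mul_right _ hb
      have h2 : q ^ 3 * (j * (j + 2) * (q ^ 3 - 1)) ≤ j * q ^ 3 * q ^ 3 :=
        h1.trans (Nat.mul_le_mul_left _ (by omega))
      have h3 : (q ^ 3 * j) * ((j + 2) * (q ^ 3 - 1)) ≤ (q ^ 3 * j) * q ^ 3 := by
        calc _ = q ^ 3 * (j * (j + 2) * (q ^ 3 - 1)) := by ring
          _ ≤ _ := h2
          _ = _ := by ring
      have h4 : (j + 2) * (q ^ 3 - 1) ≤ q ^ 3 := Nat.le_of_mul_le_mul_left h3 (Nat.mul_pos hq30 hj1)
      have h5 : 2 ^ 3 ≤ q ^ 3 := Nat.pow_le_pow_left (by omega) 3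
      have h6 : 3 * (q ^ 3 - 1) ≤ (j + 2) * (q ^ 3 - 1) := Nat.mul_le_mul_right _ (by omega)
      omega
    · obtain ⟨z, hzQ, hz1⟩ : ∃ z ∈ Q, z ≠ 1 := by
        by_contra hcon
        push Not at hcon
        exact hQ1 ((Subgroup.eq_bot_iff_forall _).2 hcon)
      obtain ⟨s, hs1, hs⟩ := hz z hzQ hz1
      have hb := hle1 hs1
      rw [hs] at hb
      have hidx := index_cent_lt hQn hzQ hz1
      have hci := Subgroup.card_mul_index (Subgroup.centralizer ({z} : Set G))
      have hQq : d * Nat.card Q ≤ (j + 1) * (j * (j + 2)) := by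
        rw [ha]
        apply arith_part hj1 hd3 ht
        rw [← ha]
        refine Nat.Coprime.dvd_of_dvd_mul_left ?_ hQk
        rw [ha, hf]
        apply Nat.Coprime.pow_left
        apply Nat.Coprime.pow_right
        apply Nat.Coprime.pow_right
        exact (Nat.coprime_primes ht hp).mpr htp
      rw [← hci] at hdG
      generalize Nat.card (Subgroup.centralizer ({z} : Set G)) = c at *
      generalize (Subgroup.centralizer ({z} : Set G)).index = i at *
      have hq31 : 0 < q ^ 3 - 1 := by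
        have : 2 ^ 3 ≤ q ^ 3 := Nat.pow_le_pow_left (by omega) 3
        omega
      have h1 : (q ^ 2 * (q ^ 3 - 1)) * (q * (j * (j + 2))) ≤ (q ^ 2 * (q ^ 3 - 1)) * (d * i) := by
        calc (q ^ 2 * (q ^ 3 - 1)) * (q * (j * (j + 2))) = q ^ 3 * (j * (j + 2) * (q ^ 3 - 1)) := by ring
          _ = d * (c * i) := hdG.symm
          _ = d * i * c := by ring
          _ ≤ d * i * ((q ^ 3 - 1) * q ^ 2) := Nat.mul_le_mul_left _ hb
          _ = _ := by ring
      have h2 : q * (j * (j + 2)) ≤ d * i :=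
        Nat.le_of_mul_le_mul_left h1 (Nat.mul_pos (pow_pos (by omega) 2) hq31)
      rw [← hj] at hQq
      have h3 : d * i < d * Nat.card Q := Nat.mul_lt_mul_of_pos_left hidx hd0
      omega

end Cfsg.Agent.H881.CS
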