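import Mathlib
import Cfsg.Agent.H363.PslSpec

/-!
# S3677, PSL₃(q): the centralizers of the elements commuting with an element of order `r ∣ q² + q + 1` (helper881)
-/

set_option autoImplicit false

namespace Cfsg.Agent.H881.CS

open Matrix Module Cfsg.Agent.H363.PslSpec Cfsg.Agent.H363

universe u v

section field

variable {F : Type u} {V : Type v} [Field F] [Finite F] [AddCommGroup V] [Module F V]
  [FiniteDimensional F V]

/-- The centralizer of an irreducible element of prime order is a field of degree `dim V`. -/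
theorem exists_field' {x : Module.End F V} {r : ℕ} (hr : r.Prime) (hx : x ^ r = 1) (hx1 : x ≠ 1)
    (hrn : r ∣ Nat.card F ^ finrank F V - 1)
    (hrd : ∀ d, 0 < d → d < finrank F V → ¬ r ∣ Nat.card F ^ d - 1) :
    ∃ (K : Type v) (_ : Field K) (_ : Finite K) (_ : Algebra F K) (f : K →ₐ[F] Module.End F V),
      Function.Injective f ∧ (∀ a, Commute a x ↔ ∃ k, f k = a) ∧ finrank F K = finrank F V ∧
      ∀ a, LinearMap.det (f a) = Algebra.norm F a := by
  have hfinV : Finite V := Module.finite_of_finite F
  obtain ⟨K, _, _, _, f, hf, hK⟩ := CentField.exists_field hr hx hx1 hrn hrd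
  obtain ⟨y, hy⟩ := (hK x).mp (Commute.refl x)
  let _ : Module K V := Module.compHom V f.toRingHom
  have hsm : ∀ (k : K) (v : V), k • v = f k v := fun _ _ => rfl
  have : IsScalarTower F K V := ⟨fun c k v => by
    rw [hsm, hsm, map_smul, LinearMap.smul_apply]⟩
  have hnt : Nontrivial V := by
    rw [← not_subsingleton_iff_nontrivial]
    intro h
    exact hx1 (LinearMap.ext fun v => Subsingleton.elim _ _)
  have hn0 : 0 < finrank F V := finrank_pos
  have hq1 : 1 < Nat.card F := Finite.one_lt_card
  have : FiniteDimensional F K := Module.Finite.of_finite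
  have : FiniteDimensional K V := Module.Finite.of_finite
  have hmul : finrank F K * finrank K V = finrank F V := Module.finrank_mul_finrank F K V
  have hyr : y ^ r = 1 := hf (by rw [map_pow, hy, hx, map_one])
  have hy1 : y ≠ 1 := by
    rintro rfl
    rw [map_one] at hy
    exact hx1 hy.symm
  have hcardK : Nat.card K = Nat.card F ^ finrank F K := Module.natCard_eq_pow_finrank
  have hy0 : y ≠ 0 := by
    rintro rfl
    rw [zero_pow hr.ne_zero] at hyr
    exact zero_ne_one hyr
  have hrK : r ∣ Nat.card F ^ finrank F K - 1 := by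
    have h1 : orderOf (Units.mk0 y hy0) = r := by
      have : Fact r.Prime := ⟨hr⟩
      apply orderOf_eq_prime
      · ext; simpa using hyr
      · intro h; exact hy1 (by simpa using congrArg Units.val h)
    have h2 := orderOf_dvd_natCard (Units.mk0 y hy0)
    rw [h1, Nat.card_units, hcardK] at h2
    exact h2
  have hFK : finrank F K = finrank F V := by
    have h1 : finrank F K ∣ finrank F V := ⟨_, hmul.symm⟩
    have h2 : 0 < finrank F K := finrank_pos
    rcases Nat.lt_or_ge (finrank F K) (finrank F V) with h3 | h3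
    · exact absurd hrK (hrd _ h2 h3)
    · exact le_antisymm (Nat.le_of_dvd hn0 h1) h3
  have hKV : finrank K V = 1 := by
    rw [hFK] at hmul
    exact Nat.eq_of_mul_eq_mul_left hn0 (by rw [hmul, mul_one])
  refine ⟨K, _, inferInstance, _, f, hf, hK, hFK, fun a => ?_⟩
  rw [← CentField.det_lsmul hKV a]
  congr 1

omit [Finite F] [FiniteDimensional F V] in
/-- In an extension of prime degree a nonscalar element generates. -/
theorem commute_of_nonscalar {K : Type v} [Field K] [Finite K] [Algebra F K] (hK : (finrank F K).Prime)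
    {f : K →ₐ[F] Module.End F V} {a : K} (ha : ∀ c : F, algebraMap F K c ≠ a) {g : Module.End F V}
    (hg : Commute g (f a)) (k : K) : Commute g (f k) := by
  have : FiniteDimensional F K := Module.Finite.of_finite
  have htop : IntermediateField.adjoin F {a} = ⊤ := by
    have h1 := finrank_mul_finrank F (IntermediateField.adjoin F {a}) K
    rcases (Nat.dvd_prime hK).1 ⟨_, h1.symm⟩ with h2 | h2
    · exfalso
      have h3 := IntermediateField.finrank_eq_one_iff.1 h2
      have h4 : a ∈ IntermediateField.adjoin F {a} := IntermediateField.mem_adjoin_simple_self F a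
      rw [h3, IntermediateField.mem_bot] at h4
      obtain ⟨c, hc⟩ := h4
      exact ha c hc
    · exact IntermediateField.eq_of_le_of_finrank_eq le_top (by rw [h2, IntermediateField.finrank_top'])
  have htop' : Algebra.adjoin F {a} = ⊤ := by
    rw [← IntermediateField.adjoin_simple_toSubalgebra_of_isAlgebraic (Algebra.IsAlgebraic.isAlgebraic a), htop]
    rfl
  have hle : Algebra.adjoin F {a} ≤ (Subalgebra.centralizer F {g}).comap f := by
    rw [Algebra.adjoin_le_iff]
    rintro b rfl
    show f b ∈ Subalgebra.centralizer F {g}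
    rw [Subalgebra.mem_centralizer_iff]
    intro y hy
    rw [Set.mem_singleton_iff.1 hy]
    exact hg
  have h1 : k ∈ Algebra.adjoin F {a} := by rw [htop']; trivial
  have h2 := hle h1
  exact ((Subalgebra.mem_centralizer_iff F).1 h2) g rfl

end field

section group

variable {F : Type u} [Field F] [Finite F]

/-- the elements of determinant one commuting with an irreducible element of prime order -/
theorem card_cent_SL {r : ℕ} (hr : r.Prime) (hrn : r ∣ Nat.card F ^ 3 - 1)
    (hrd : ∀ d, 0 < d → d < 3 → ¬ r ∣ Nat.card F ^ d - 1)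
    {Y : Matrix.SpecialLinearGroup (Fin 3) F} (hY : Y ^ r = 1) (hY1 : Y ≠ 1) :
    Nat.card (Subgroup.centralizer ({Y} : Set (Matrix.SpecialLinearGroup (Fin 3) F))) * (Nat.card F - 1) =
      Nat.card F ^ 3 - 1 ∧
    ∀ X, Commute X Y → (∀ g, Commute g Y → Commute g X) ∧
      (X ∉ Subgroup.center (Matrix.SpecialLinearGroup (Fin 3) F) → ∀ g, Commute g X → Commute g Y) := by
  have hfr : finrank F (Fin 3 → F) = 3 := finrank_fin_fun F
  have h1 : act Y ^ r = 1 := by rw [← map_pow, hY, map_one]
  have h2 : act Y ≠ 1 := by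
    intro h
    exact hY1 (act_injective (by rw [h, map_one]))
  obtain ⟨K, _, _, _, f, hf, hK, hFK, hdet⟩ := exists_field' hr h1 h2 (by rw [hfr]; exact hrn)
    (by rw [hfr]; exact hrd)
  rw [hfr] at hFK
  have hcardK : Nat.card K = Nat.card F ^ 3 := by rw [← hFK]; exact Module.natCard_eq_pow_finrank
  constructor
  · let N : Kˣ →* Fˣ := Units.map (Algebra.norm F (S := K))
    have hN : Function.Surjective N := FiniteField.unitsMap_norm_surjective F K
    have h3 : Nat.card N.ker * (Nat.card F - 1) = Nat.card F ^ 3 - 1 := by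
      rw [← hcardK, ← Nat.card_units, ← Nat.card_units, ← Subgroup.card_mul_index N.ker, Subgroup.index_ker,
        MonoidHom.range_eq_top.2 hN, Subgroup.card_top]
    rw [← h3]
    congr 1
    symm
    have hd : ∀ k : N.ker, Matrix.det (toLinAlgEquiv'.symm (f (k : Kˣ)) : Matrix (Fin 3) (Fin 3) F) = 1 := by
      intro k
      rw [← LinearMap.det_toLin']
      have h4 : toLin' (toLinAlgEquiv'.symm (f (k : Kˣ)) : Matrix (Fin 3) (Fin 3) F) = f (k : Kˣ) :=
        (toLinAlgEquiv' : Matrix (Fin 3) (Fin 3) F ≃ₐ[F] _).apply_symm_apply _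
      rw [h4, hdet]
      exact congrArg Units.val k.2
    have ha : ∀ k : N.ker, act (⟨toLinAlgEquiv'.symm (f (k : Kˣ)), hd k⟩ : Matrix.SpecialLinearGroup (Fin 3) F) =
        f (k : Kˣ) := by
      intro k
      exact (toLinAlgEquiv' : Matrix (Fin 3) (Fin 3) F ≃ₐ[F] _).apply_symm_apply _
    have hmem : ∀ g : Matrix.SpecialLinearGroup (Fin 3) F,
        g ∈ Subgroup.centralizer ({Y} : Set (Matrix.SpecialLinearGroup (Fin 3) F)) ↔ Commute (act g) (act Y) := by
      intro g
      rw [Subgroup.mem_centralizer_iff]
      constructor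
      · intro h
        exact (show Commute Y g from h Y rfl).symm.map act
      · intro h y hy
        rw [Set.mem_singleton_iff.1 hy]
        apply act_injective
        rw [map_mul, map_mul]
        exact h.eq.symm
    refine Nat.card_congr (Equiv.ofBijective (fun k : N.ker =>
      (⟨⟨toLinAlgEquiv'.symm (f (k : Kˣ)), hd k⟩, (hmem _).2 (by rw [ha]; exact (hK _).2 ⟨_, rfl⟩)⟩ :
        Subgroup.centralizer ({Y} : Set (Matrix.SpecialLinearGroup (Fin 3) F)))) ⟨?_, ?_⟩)
    · intro a b hab
      have h4 := congrArg (fun g : Subgroup.centralizer ({Y} : Set (Matrix.SpecialLinearGroup (Fin 3) F)) =>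
        act (g : Matrix.SpecialLinearGroup (Fin 3) F)) hab
      simp only [ha] at h4
      exact Subtype.ext (Units.ext (hf h4))
    · rintro ⟨g, hg⟩
      obtain ⟨k, hk⟩ := (hK _).1 ((hmem g).1 hg)
      have hk1 : Algebra.norm F k = 1 := by rw [← hdet, hk, det_act]
      have hk0 : k ≠ 0 := by
        rintro rfl
        rw [Algebra.norm_zero] at hk1
        exact zero_ne_one hk1
      refine ⟨⟨Units.mk0 k hk0, ?_⟩, ?_⟩
      · rw [MonoidHom.mem_ker]
        exact Units.ext hk1
      · apply Subtype.ext
        apply act_injective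
        rw [ha]
        exact hk
  · intro X hX
    obtain ⟨a, ha⟩ := (hK _).1 (hX.map act)
    refine ⟨fun g hg => ?_, fun hXc g hg => ?_⟩
    · obtain ⟨b, hb⟩ := (hK _).1 (hg.map act)
      apply act_injective
      rw [map_mul, map_mul, ← ha, ← hb, ← map_mul, mul_comm, map_mul]
    have hns : ∀ c : F, algebraMap F K c ≠ a := by
      rintro c rfl
      apply hXc
      rw [AlgHom.commutes] at ha
      rw [Matrix.SpecialLinearGroup.mem_center_iff]
      have hmat : (X : Matrix (Fin 3) (Fin 3) F) = scalar (Fin 3) c := by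
        apply (toLinAlgEquiv' : Matrix (Fin 3) (Fin 3) F ≃ₐ[F] _).injective
        rw [← act_apply, ← ha]
        have : scalar (Fin 3) c = algebraMap F (Matrix (Fin 3) (Fin 3) F) c := rfl
        rw [this, AlgEquiv.commutes]
      refine ⟨c, ?_, hmat.symm⟩
      have h4 := X.2
      rw [hmat] at h4
      simpa [Fintype.card_fin] using h4
    obtain ⟨y, hy⟩ := (hK _).1 (Commute.refl (act Y))
    have h5 : Commute (act g) (f y) := commute_of_nonscalar (by rw [hFK]; exact Nat.prime_three) hns
      (by rw [ha]; exact hg.map act) y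
    rw [hy] at h5
    apply act_injective
    rw [map_mul, map_mul]
    exact h5.eq

theorem gcd_three (x : ℕ) : Nat.gcd 3 x = 1 ∨ Nat.gcd 3 x = 3 :=
  (Nat.dvd_prime Nat.prime_three).mp (Nat.gcd_dvd_left 3 x)

/-- commuting modulo the centre -/
theorem commute_of_coprime {n : ℕ} {X u : Matrix.SpecialLinearGroup (Fin n) F} (h : Commute (pr F n u) (pr F n X))
    {k : ℕ} (hk : u ^ k = 1) (hc : k.Coprime (Nat.gcd n (Nat.card F - 1))) : Commute u X := by
  set z := u * X * u⁻¹ * X⁻¹ with hz
  have hzc : z ∈ Subgroup.center (Matrix.SpecialLinearGroup (Fin n) F) := by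
    rw [← pr_eq_one, hz, map_mul, map_mul, map_mul, h.eq, map_inv, map_inv]
    group
  have hcz : ∀ g, g * z = z * g := fun g => Subgroup.mem_center_iff.1 hzc g
  have h1 : u * X = z * X * u := by rw [hz]; group
  have h2 : ∀ j : ℕ, u ^ j * X = z ^ j * X * u ^ j := by
    intro j
    induction j with
    | zero => simp
    | succ j ih =>
      have h3 : ∀ g, g * z ^ j = z ^ j * g := fun g => (show Commute g z from hcz g).pow_right j
      calc u ^ (j + 1) * X = u * (u ^ j * X) := by rw [pow_succ']; group
        _ = u * z ^ j * X * u ^ j := by rw [ih]; group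
        _ = z ^ j * (u * X) * u ^ j := by rw [h3 u]; group
        _ = z ^ (j + 1) * X * u ^ (j + 1) := by rw [h1, pow_succ, pow_succ']; group
  have h3 := h2 k
  rw [hk, one_mul, mul_one] at h3
  have h4 : z ^ k = 1 := by
    have := congrArg (fun w => w * X⁻¹) h3
    simpa using this.symm
  have h5 := center_pow z hzc
  have h6 : z = 1 := by
    rw [← orderOf_dvd_iff_pow_eq_one] at h4 h5
    have h7 := Nat.dvd_gcd h4 h5
    rw [hc] at h7
    exact orderOf_eq_one_iff.1 (Nat.dvd_one.1 h7)
  rw [h6, one_mul] at h1
  exact h1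

/-- the preimage of a centralizer of `PSL_n(q)` -/
theorem card_comap_pr {n : ℕ} (hn : 0 < n) (H : Subgroup (ProjectiveSpecialLinearGroup (Fin n) F)) :
    Nat.card (H.comap (pr F n)) = Nat.gcd n (Nat.card F - 1) * Nat.card H := by
  have : Fintype F := Fintype.ofFinite F
  have : Nonempty (Fin n) := ⟨⟨0, hn⟩⟩
  have h2 : Nat.card (Subgroup.center (Matrix.SpecialLinearGroup (Fin n) F)) = Nat.gcd n (Nat.card F - 1) := by
    rw [Nat.card_congr (Matrix.SpecialLinearGroup.center_equiv_rootsOfUnity'
      (n := Fin n) (R := F) ⟨0, hn⟩).toEquiv, rootsOfUnity_eq_ker,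
      IsCyclic.card_powMonoidHom_ker, Nat.card_units, Fintype.card_fin, Nat.gcd_comm]
  have h3 := Subgroup.card_mul_index (H.comap (pr F n))
  rw [Subgroup.index_comap_of_surjective H (pr_surjective)] at h3
  have h4 := Subgroup.card_mul_index H
  have h5 := Subgroup.card_mul_index (Subgroup.center (Matrix.SpecialLinearGroup (Fin n) F))
  have h6 : Nat.card (ProjectiveSpecialLinearGroup (Fin n) F) =
    (Subgroup.center (Matrix.SpecialLinearGroup (Fin n) F)).index := rfl
  rw [h2, ← h6, ← h4, ← h3] at h5
  have h7 : 0 < H.index := Nat.pos_of_ne_zero Subgroup.index_ne_zero_of_finite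
  apply Nat.eq_of_mul_eq_mul_right h7
  rw [← h5]; ring

/-- **Centralizers in `PSL₃(q)` of the elements commuting with an element of order `r`, `q` of order `3` modulo `r`.** -/
theorem card_cent_PSL {r : ℕ} (hr : r.Prime) (hrn : r ∣ Nat.card F ^ 3 - 1)
    (hrd : ∀ d, 0 < d → d < 3 → ¬ r ∣ Nat.card F ^ d - 1) {s : ProjectiveSpecialLinearGroup (Fin 3) F} (hs : s ≠ 1)
    (h : r ∣ Nat.card (Subgroup.centralizer ({s} : Set (ProjectiveSpecialLinearGroup (Fin 3) F)))) :
    Nat.gcd 3 (Nat.card F - 1) * Nat.card (Subgroup.centralizer ({s} : Set (ProjectiveSpecialLinearGroup (Fin 3) F))) *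
      (Nat.card F - 1) = Nat.card F ^ 3 - 1 := by
  have hq1 : 1 < Nat.card F := Finite.one_lt_card
  obtain ⟨X, rfl⟩ := pr_surjective s
  have hXc : X ∉ Subgroup.center (Matrix.SpecialLinearGroup (Fin 3) F) := fun h => hs (pr_eq_one.2 h)
  have hrc : ¬ r ∣ Nat.gcd 3 (Nat.card F - 1) := by
    intro h1
    apply hrd 1 one_pos (by omega)
    rw [pow_one]; exact h1.trans (Nat.gcd_dvd_right _ _)
  have := Fact.mk hr
  obtain ⟨y, hy⟩ := exists_prime_orderOf_dvd_card' r h
  obtain ⟨Y0, hY0⟩ := pr_surjective (y : ProjectiveSpecialLinearGroup (Fin 3) F)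
  obtain ⟨k, hk1, hk2⟩ := lift_prime_pow (g := Y0) (j := 0) hr hrc (by
    rw [zero_add, pow_one, hY0, Subgroup.orderOf_coe, hy])
  rw [zero_add, pow_one] at hk1
  rw [pow_zero, pow_one] at hk2
  have hyX : Commute (pr F 3 X) (pr F 3 (Y0 ^ k)) := by
    rw [map_pow, hY0]
    exact Commute.pow_right (show Commute (pr F 3 X) (y : ProjectiveSpecialLinearGroup (Fin 3) F) from
      (Subgroup.mem_centralizer_iff.1 y.2) _ rfl) k
  have hYX : Commute (Y0 ^ k) X := commute_of_coprime hyX.symm hk1
    ((Nat.Prime.coprime_iff_not_dvd hr).2 hrc)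
  generalize Y0 ^ k = Y at hk1 hk2 hYX
  clear hyX hY0
  obtain ⟨hcard, hcm⟩ := card_cent_SL hr hrn hrd hk1 hk2
  rw [← hcard, ← card_comap_pr (by norm_num)]
  congr 2
  have hD : (Subgroup.centralizer ({pr F 3 X} : Set (ProjectiveSpecialLinearGroup (Fin 3) F))).comap (pr F 3) =
      Subgroup.centralizer ({Y} : Set (Matrix.SpecialLinearGroup (Fin 3) F)) := by
    ext g
    rw [Subgroup.mem_comap, Subgroup.mem_centralizer_iff, Subgroup.mem_centralizer_iff]
    constructor
    · intro hg y hy
      rw [Set.mem_singleton_iff.1 hy]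
      suffices Commute g Y from this.symm
      have hgX : Commute (pr F 3 X) (pr F 3 g) := hg _ rfl
      set z := g * X * g⁻¹ * X⁻¹ with hz
      have hzc : z ∈ Subgroup.center (Matrix.SpecialLinearGroup (Fin 3) F) := by
        rw [← pr_eq_one, hz, map_mul, map_mul, map_mul, ← hgX.eq, map_inv, map_inv]
        group
      have hcz : ∀ g, g * z = z * g := fun g => Subgroup.mem_center_iff.1 hzc g
      have h1 : g * X = z * X * g := by rw [hz]; group
      have hz1 := center_pow z hzc
      have hz3 : z ^ 3 = 1 := by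
        obtain ⟨t, ht⟩ := Nat.gcd_dvd_left 3 (Nat.card F - 1)
        have h8 := congrArg (fun w => w ^ t) hz1
        simp only [one_pow, ← pow_mul] at h8
        rwa [← ht] at h8
      have hgX3 : Commute g (X ^ 3) := by
        have h8 : g * X * g⁻¹ = z * X := by rw [h1]; group
        have h9 : g * X ^ 3 * g⁻¹ = X ^ 3 := by
          rw [← conj_pow, h8, (show Commute z X from (hcz X).symm).mul_pow, hz3, one_mul]
        show g * X ^ 3 = X ^ 3 * g
        calc g * X ^ 3 = (g * X ^ 3 * g⁻¹) * g := by group
          _ = X ^ 3 * g := by rw [h9]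
      by_cases h3 : X ^ 3 ∈ Subgroup.center (Matrix.SpecialLinearGroup (Fin 3) F)
      · rcases gcd_three (Nat.card F - 1) with hd | hd
        · rw [hd, pow_one] at hz1
          rw [hz1, one_mul] at h1
          exact (hcm X hYX.symm).2 hXc g h1
        · exfalso
          have h4 := center_pow _ h3
          rw [hd, ← pow_mul] at h4
          have hact1 : act Y ^ r = 1 := by rw [← map_pow, hk1, map_one]
          have hact2 : act Y ≠ 1 := by
            intro h
            exact hk2 (act_injective (by rw [h, map_one]))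
          have key := CentField.pow_eq_one hr hact1 hact2 (by rw [finrank_fin_fun]; exact hrn)
            (by rw [finrank_fin_fun]; exact hrd) (hYX.symm.map act) (det_act X)
          rw [finrank_fin_fun] at key
          obtain ⟨key1, key2⟩ := key
          have h3q : 3 ∣ Nat.card F - 1 := by
            have := Nat.gcd_dvd_right 3 (Nat.card F - 1)
            rwa [hd] at this
          obtain ⟨i, hi⟩ := h3q
          have hqi : Nat.card F = 3 * i + 1 := by omega
          have hM : (Nat.card F ^ 3 - 1) / (Nat.card F - 1) = 3 * (3 * (i ^ 2 + i) + 1) := by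
            rw [hqi, Nat.add_sub_cancel]
            have h5 : (3 * i + 1) ^ 3 - 1 = 3 * i * (3 * (3 * (i ^ 2 + i) + 1)) := by
              have : (3 * i + 1) ^ 3 = 3 * i * (3 * (3 * (i ^ 2 + i) + 1)) + 1 := by ring
              omega
            rw [h5, Nat.mul_div_cancel_left _ (by omega)]
          rw [hM] at key1
          have hX3 : X ^ 3 = 1 := by
            have h6 : X ^ (3 * (3 * (i ^ 2 + i) + 1)) = 1 := act_injective (by rw [map_pow, key1, map_one])
            rw [← orderOf_dvd_iff_pow_eq_one] at h4 h6 ⊢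
            have h7 := Nat.dvd_gcd h4 h6
            have h8 : Nat.gcd (3 * 3) (3 * (3 * (i ^ 2 + i) + 1)) = 3 := by
              rw [Nat.gcd_mul_left]
              have : Nat.gcd 3 (3 * (i ^ 2 + i) + 1) = 1 := by
                rcases gcd_three (3 * (i ^ 2 + i) + 1) with h9 | h9
                · exact h9
                · have h10 := Nat.gcd_dvd_right 3 (3 * (i ^ 2 + i) + 1)
                  rw [h9] at h10
                  generalize i ^ 2 + i = t at h10
                  omega
              rw [this]
            rwa [h8] at h7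
          obtain ⟨c, hc⟩ := key2 1 (by
            rw [pow_one, hi, pow_mul, ← map_pow, hX3, map_one, one_pow])
          rw [pow_one] at hc
          apply hXc
          rw [Matrix.SpecialLinearGroup.mem_center_iff]
          have hmat : (X : Matrix (Fin 3) (Fin 3) F) = scalar (Fin 3) c := by
            apply (toLinAlgEquiv' : Matrix (Fin 3) (Fin 3) F ≃ₐ[F] _).injective
            rw [← act_apply, hc]
            have : scalar (Fin 3) c = algebraMap F (Matrix (Fin 3) (Fin 3) F) c := rfl
            rw [this, AlgEquiv.commutes]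
          refine ⟨c, ?_, hmat.symm⟩
          have h4 := X.2
          rw [hmat] at h4
          simpa [Fintype.card_fin] using h4
      · exact (hcm (X ^ 3) (hYX.symm.pow_left 3)).2 h3 g hgX3
    · intro hg y hy
      rw [Set.mem_singleton_iff.1 hy]
      have h1 : Commute g Y := (show Commute Y g from hg Y rfl).symm
      exact (((hcm X hYX.symm).1 g h1).symm.map (pr F 3))
  rw [hD]

end group

end Cfsg.Agent.H881.CS
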